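import Mathlib
import Cfsg.Agent.Lib.ClassSizes
import Cfsg.Agent.Lib.PNilp

/-! coverings by conjugates of centralizers of Sylow subgroups -/

set_option autoImplicit false
set_option linter.all false

namespace Cfsg.Agent.H3.CoverC
open Subgroup Cfsg.Agent.Lib.ClassSizes Cfsg.Agent.Lib.PNilp Cfsg.Agent.Lib.Basic
open scoped Pointwise

variable {G : Type*} [Group G]

theorem card_conj_le [Finite G] (C N : Subgroup G) (hN : N ≤ normalizer (C : Set G)) :
    Nat.card {x : G // x ≠ 1 ∧ ∃ g : G, g⁻¹ * x * g ∈ C} ≤ N.index * (Nat.card C - 1) := by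
  classical
  have h1 : Nat.card {c : C // c ≠ 1} = Nat.card C - 1 := by
    haveI : Fintype C := Fintype.ofFinite C
    rw [Nat.card_eq_fintype_card, Nat.card_eq_fintype_card]
    have := Fintype.card_subtype_compl (fun c : C => c = 1)
    rw [Fintype.card_subtype_eq] at this
    exact this
  rw [index_eq_card, ← h1, ← Nat.card_prod]
  refine Nat.card_le_card_of_surjective
    (fun q : (G ⧸ N) × {c : C // c ≠ 1} => (⟨q.1.out * ((q.2 : C) : G) * q.1.out⁻¹, ?_, q.1.out, ?_⟩ :
      {x : G // x ≠ 1 ∧ ∃ g : G, g⁻¹ * x * g ∈ C})) ?_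
  · intro h
    apply q.2.2
    rw [mul_inv_eq_one, mul_eq_left] at h
    exact Subtype.ext h
  · have : q.1.out⁻¹ * (q.1.out * ((q.2 : C) : G) * q.1.out⁻¹) * q.1.out = ((q.2 : C) : G) := by group
    rw [this]; exact (q.2 : C).2
  · rintro ⟨x, hx1, g, hg⟩
    obtain ⟨n, hn⟩ := QuotientGroup.mk_out_eq_mul N g
    have hnC : (n : G)⁻¹ * (g⁻¹ * x * g) * n ∈ C := (mem_normalizer_iff''.mp (hN n.2) _).mp hg
    refine ⟨((g : G ⧸ N), ⟨⟨(n : G)⁻¹ * (g⁻¹ * x * g) * n, hnC⟩, ?_⟩), ?_⟩
    · intro h
      apply hx1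
      have h2 : (n : G)⁻¹ * (g⁻¹ * x * g) * n = 1 := congrArg Subtype.val h
      have h3 : x = g * n * ((n : G)⁻¹ * (g⁻¹ * x * g) * n) * (g * n)⁻¹ := by group
      rw [h3, h2]; group
    · apply Subtype.ext
      change (g : G ⧸ N).out * ((n : G)⁻¹ * (g⁻¹ * x * g) * n) * (g : G ⧸ N).out⁻¹ = x
      rw [hn]; group

theorem mem_centralizer_sylow [Finite G] {p : ℕ} [Fact p.Prime] (P : Sylow p G) {x : G}
    (hx : ¬ p ∣ (centralizer ({x} : Set G)).index) : ∃ g : G, g⁻¹ * x * g ∈ centralizer ((P : Subgroup G) : Set G) := by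
  obtain ⟨Q⟩ := (inferInstance : Nonempty (Sylow p (centralizer ({x} : Set G))))
  have h1 : IsPGroup p ((Q : Subgroup (centralizer ({x} : Set G))).map (centralizer ({x} : Set G)).subtype) := Q.2.map _
  have h2 : ¬ p ∣ ((Q : Subgroup (centralizer ({x} : Set G))).map (centralizer ({x} : Set G)).subtype).index := by
    rw [index_map_subtype]
    intro hd
    rcases (Nat.Prime.dvd_mul Fact.out).mp hd with hd | hd
    · exact Q.not_dvd_index hd
    · exact hx hd
  obtain ⟨g, hg⟩ := MulAction.exists_smul_eq G P (h1.toSylow h2)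
  refine ⟨g, ?_⟩
  have h3 : (P : Subgroup G).map (MulAut.conj g).toMonoidHom =
      (Q : Subgroup (centralizer ({x} : Set G))).map (centralizer ({x} : Set G)).subtype :=
    congrArg (fun S : Sylow p G => (S : Subgroup G)) hg
  rw [mem_centralizer_iff]
  intro y hy
  have h4 : g * y * g⁻¹ ∈ centralizer ({x} : Set G) := by
    have h5 : (MulAut.conj g) y ∈ (P : Subgroup G).map (MulAut.conj g).toMonoidHom := ⟨y, hy, rfl⟩
    rw [h3] at h5
    obtain ⟨z, -, hz⟩ := h5
    have h6 : g * y * g⁻¹ = z := hz.symm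
    rw [h6]; exact z.2
  rw [mem_centralizer_singleton] at h4
  calc y * (g⁻¹ * x * g) = g⁻¹ * (g * y * g⁻¹ * x) * g := by group
    _ = g⁻¹ * (x * (g * y * g⁻¹)) * g := by rw [h4]
    _ = g⁻¹ * x * g * y := by group

/-- half of the group at most -/
theorem two_mul_card_conj_le [Finite G] (X : Subgroup G) (hX : ¬ normalizer (X : Set G) ≤ centralizer (X : Set G)) :
      2 * (Nat.card {x : G // x ≠ 1 ∧ ∃ g : G, g⁻¹ * x * g ∈ centralizer (X : Set G)}) + 2 ≤ Nat.card G := by
    have h0 : centralizer (X : Set G) ≤ normalizer (X : Set G) := centralizer_le_normalizer _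
    have h1 := card_conj_le (centralizer (X : Set G)) (normalizer (X : Set G)) (by
      haveI : ((centralizer (X : Set G)).subgroupOf (normalizer (X : Set G))).Normal := by
        rw [← normalizerMonoidHom_ker]; infer_instance
      exact (normal_subgroupOf_iff_le_normalizer h0).mp this)
    have h2 := (normalizer (X : Set G)).index_mul_card
    have h3 := Cfsg.Agent.Lib.Basic.relIndex_mul_card h0
    have h4 : 2 ≤ (centralizer (X : Set G)).relIndex (normalizer (X : Set G)) := by
      have h5 : (centralizer (X : Set G)).relIndex (normalizer (X : Set G)) ≠ 0 := index_ne_zero_of_finite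
      have h6 : (centralizer (X : Set G)).relIndex (normalizer (X : Set G)) ≠ 1 := by
        rw [Ne, relIndex_eq_one]; exact hX
      omega
    have h5 : 0 < (normalizer (X : Set G)).index := Nat.pos_of_ne_zero index_ne_zero_of_finite
    have h6 : 0 < Nat.card (centralizer (X : Set G)) := Nat.card_pos
    set n := (normalizer (X : Set G)).index
    set c := Nat.card (centralizer (X : Set G))
    obtain ⟨d, hd⟩ : ∃ d, c = d + 1 := ⟨c - 1, by omega⟩
    rw [← h2, ← h3]
    rw [hd] at h1 ⊢
    simp only [Nat.add_sub_cancel] at h1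
    calc _ ≤ 2 * (n * d) + 2 := by omega
      _ ≤ n * (2 * (d + 1)) := by nlinarith
      _ ≤ _ := by gcongr

/-- the elements centralizing a Sylow `p`-subgroup -/
theorem two_mul_card_le [Finite G] {p : ℕ} [Fact p.Prime] (P : Sylow p G)
    (h : ¬ normalizer ((P : Subgroup G) : Set G) ≤ centralizer ((P : Subgroup G) : Set G)) :
    2 * Nat.card {x : G // ¬ p ∣ (centralizer ({x} : Set G)).index} ≤ Nat.card G := by
  classical
  have h1 := two_mul_card_conj_le _ h
  have h2 : Nat.card {x : G // ¬ p ∣ (centralizer ({x} : Set G)).index} ≤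
      Nat.card {x : G // x ≠ 1 ∧ ∃ g : G, g⁻¹ * x * g ∈ centralizer ((P : Subgroup G) : Set G)} + 1 := by
    have h3 : ({x : G | ¬ p ∣ (centralizer ({x} : Set G)).index}) ⊆
        insert 1 {x : G | x ≠ 1 ∧ ∃ g : G, g⁻¹ * x * g ∈ centralizer ((P : Subgroup G) : Set G)} := by
      intro x hx
      by_cases hx1 : x = 1
      · exact Or.inl hx1
      · exact Or.inr ⟨hx1, mem_centralizer_sylow P hx⟩
    exact (Set.ncard_le_ncard h3 (Set.toFinite _)).trans (Set.ncard_insert_le _ _)
  omega

/-- a nontrivial bound when `P` is not central -/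
theorem card_lt_of_not_central [Finite G] {p : ℕ} [Fact p.Prime]
    (h : ∃ x : G, p ∣ (centralizer ({x} : Set G)).index) :
    Nat.card {x : G // ¬ p ∣ (centralizer ({x} : Set G)).index} < Nat.card G := by
  obtain ⟨x, hx⟩ := h
  exact Finite.card_subtype_lt (x := x) (fun hn => hn hx)

theorem pNil_of_normalizer_le [Finite G] {p : ℕ} [Fact p.Prime] (P : Sylow p G)
    (h : normalizer ((P : Subgroup G) : Set G) ≤ centralizer ((P : Subgroup G) : Set G)) : PNil p G :=
  (exists_complement_iff P).mp ⟨(MonoidHom.transferSylow P h).ker, inferInstance,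
    MonoidHom.ker_transferSylow_isComplement' P h⟩

theorem two_mul_card_le' [Finite G] {p : ℕ} [Fact p.Prime] (h : ¬ PNil p G) :
    2 * Nat.card {x : G // ¬ p ∣ (centralizer ({x} : Set G)).index} ≤ Nat.card G := by
  obtain ⟨P⟩ := (inferInstance : Nonempty (Sylow p G))
  exact two_mul_card_le P (fun hle => h (pNil_of_normalizer_le P hle))

/-- if every element centralizes a Sylow `p`- or a Sylow `q`-subgroup then `N(P) = C(P)` or `N(Q) = C(Q)` -/
theorem normalizer_le_centralizer_or [Finite G] {p q : ℕ} [Fact p.Prime] [Fact q.Prime] (P : Sylow p G) (Q : Sylow q G)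
    (h : ∀ x : G, ¬ p ∣ (centralizer ({x} : Set G)).index ∨ ¬ q ∣ (centralizer ({x} : Set G)).index) :
    normalizer ((P : Subgroup G) : Set G) ≤ centralizer ((P : Subgroup G) : Set G) ∨
    normalizer ((Q : Subgroup G) : Set G) ≤ centralizer ((Q : Subgroup G) : Set G) := by
  classical
  by_contra hcon
  push Not at hcon
  have hP := two_mul_card_conj_le _ hcon.1
  have hQ := two_mul_card_conj_le _ hcon.2
  have h1 : Nat.card {x : G // x ≠ 1} = Nat.card G - 1 := by
    haveI : Fintype G := Fintype.ofFinite G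
    rw [Nat.card_eq_fintype_card, Nat.card_eq_fintype_card]
    have := Fintype.card_subtype_compl (fun c : G => c = 1)
    rw [Fintype.card_subtype_eq] at this
    exact this
  have h2 : Nat.card {x : G // x ≠ 1} ≤
      Nat.card {x : G // x ≠ 1 ∧ ∃ g : G, g⁻¹ * x * g ∈ centralizer ((P : Subgroup G) : Set G)} +
      Nat.card {x : G // x ≠ 1 ∧ ∃ g : G, g⁻¹ * x * g ∈ centralizer ((Q : Subgroup G) : Set G)} := by
    refine le_trans ?_ (Set.ncard_union_le {x : G | x ≠ 1 ∧ ∃ g : G, g⁻¹ * x * g ∈ centralizer ((P : Subgroup G) : Set G)}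
      {x : G | x ≠ 1 ∧ ∃ g : G, g⁻¹ * x * g ∈ centralizer ((Q : Subgroup G) : Set G)})
    refine Set.ncard_le_ncard (s := {x : G | x ≠ 1}) ?_ (Set.toFinite _)
    intro x hx
    rcases h x with h | h
    · exact Or.inl ⟨hx, mem_centralizer_sylow P h⟩
    · exact Or.inr ⟨hx, mem_centralizer_sylow Q h⟩
  have h3 : 0 < Nat.card G := Nat.card_pos
  omega

/-- Itô: two primes never dividing the same class size -/
theorem ito [Finite G] {p q : ℕ} [Fact p.Prime] [Fact q.Prime]
    (h : ∀ x : G, ¬ p ∣ (centralizer ({x} : Set G)).index ∨ ¬ q ∣ (centralizer ({x} : Set G)).index) :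
    PNil p G ∨ PNil q G := by
  obtain ⟨P⟩ := (inferInstance : Nonempty (Sylow p G))
  obtain ⟨Q⟩ := (inferInstance : Nonempty (Sylow q G))
  exact (normalizer_le_centralizer_or P Q h).imp (pNil_of_normalizer_le P) (pNil_of_normalizer_le Q)

end Cfsg.Agent.H3.CoverC
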