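import Mathlib
import Cfsg.Agent.Lib.ThompsonP
import Cfsg.Agent.Lib.SolvCrit

/-! solvability from `p`-nilpotency of `G / O_p(G)` for all odd primes -/

set_option autoImplicit false
set_option linter.all false

namespace Cfsg.Agent.H3.SolvOdd
open Subgroup Cfsg Cfsg.Agent.Lib.Basic Cfsg.Agent.Lib.PNilp Cfsg.Agent.Lib.Cores

variable {G : Type*} [Group G]

theorem derived_le_of_solvable_quotient [Finite G] {n : ℕ} (hn : ∀ m, n ≤ m → derivedSeries G n = derivedSeries G m)
    (K : Subgroup G) [K.Normal] (hK : Group.IsSolvable (G ⧸ K)) : derivedSeries G n ≤ K := by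
  obtain ⟨m, hm⟩ := hK.solvable
  have h1 : (derivedSeries G (max n m)).map (QuotientGroup.mk' K) ≤ ⊥ := by
    rw [map_derivedSeries_eq (QuotientGroup.mk'_surjective K), ← hm]
    exact derivedSeries_antitone _ (le_max_right n m)
  rw [hn _ (le_max_left n m)]
  intro x hx
  have := h1 (mem_map_of_mem _ hx)
  rw [mem_bot] at this
  exact (QuotientGroup.eq_one_iff x).mp this

/-- the solvable residual is solvable if it is a `q'`-group modulo the Fitting subgroup for all odd `q` -/
theorem solvable_of_chain [Finite G]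
    (h : ∀ q : ℕ, q.Prime → q ≠ 2 → ∃ P K : Subgroup G, ∃ _ : P.Normal, ∃ _ : K.Normal, IsPGroup q P ∧
      Group.IsSolvable (G ⧸ K) ∧ ¬ q ∣ P.relIndex K) : Group.IsSolvable G := by
  obtain ⟨n, hn⟩ := WellFoundedLT.antitone_chain_condition (derivedSeries_antitone G)
  set D := derivedSeries G n with hD
  haveI hDn : D.Normal := by rw [hD]; infer_instance
  have hGD : Group.IsSolvable (G ⧸ D) := by
    refine ⟨⟨n, ?_⟩⟩
    rw [← map_derivedSeries_eq (QuotientGroup.mk'_surjective D), Subgroup.map_eq_bot_iff, QuotientGroup.ker_mk']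
  haveI hFn := Cfsg.Agent.Lib.Cores.fitting_normal (G := G)
  have hFnil := Cfsg.Agent.Lib.Cores.fitting_nilpotent (G := G)
  set F := fittingSubgroup G with hF
  -- `F.relIndex D` is a power of two
  have h2 : ∀ q : ℕ, q.Prime → q ∣ F.relIndex D → q = 2 := by
    intro q hq hqd
    by_contra hq2
    haveI : Fact q.Prime := ⟨hq⟩
    obtain ⟨P, K, hP, hK, hPq, hKs, hi⟩ := h q hq hq2
    have h3 : D ≤ K := derived_le_of_solvable_quotient hn K hKs
    have h4 : P ≤ F := (le_pCore hP hPq).trans (pCore_le_fitting q)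
    apply hi
    have h5 : F.relIndex D ∣ P.relIndex D := relIndex_dvd_of_le_left D h4
    have h6 : P.relIndex D ∣ P.relIndex K := by
      exact Cfsg.Agent.Lib.HallHigman.relIndex_dvd_of_normal h3
    exact hqd.trans (h5.trans h6)
  obtain ⟨k, hk⟩ : ∃ k, F.relIndex D = 2 ^ k :=
    ⟨_, Nat.eq_prime_pow_of_unique_prime_dvd (index_ne_zero_of_finite : (F.subgroupOf D).index ≠ 0) (fun {q} hq hqd => h2 q hq hqd)⟩
  -- `D` is solvable
  have hDs : Group.IsSolvable D := by
    haveI : (F.subgroupOf D).Normal := inferInstance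
    have h7 : Group.IsSolvable (F.subgroupOf D) := by
      have h8 : Group.IsSolvable F := by infer_instance
      exact solvable_of_solvable_injective (f := (⟨⟨fun x => ⟨(x : D), x.2⟩, rfl⟩, fun _ _ => rfl⟩ : (F.subgroupOf D) →* F))
        (fun a b hab => Subtype.ext (Subtype.ext (congrArg (fun z : F => (z : G)) hab)))
    have h9 : Group.IsSolvable (D ⧸ F.subgroupOf D) := by
      haveI : Fact (Nat.Prime 2) := ⟨Nat.prime_two⟩
      have h10 : IsPGroup 2 (D ⧸ F.subgroupOf D) := IsPGroup.of_card (n := k) (by rw [← index_eq_card]; exact hk)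
      have := h10.isNilpotent
      infer_instance
    refine solvable_of_ker_le_range (F.subgroupOf D).subtype (QuotientGroup.mk' (F.subgroupOf D)) ?_
    rw [QuotientGroup.ker_mk', range_subtype]
  refine solvable_of_ker_le_range D.subtype (QuotientGroup.mk' D) ?_
  rw [QuotientGroup.ker_mk', range_subtype]

theorem solvable_of_pNil_quotient [Finite G]
    (h : ∀ q : ℕ, ∀ _ : Fact q.Prime, q ≠ 2 → ∀ _ : (pCore q G).Normal, PNil q (G ⧸ pCore q G)) : Group.IsSolvable G := by
  apply solvable_of_chain
  intro q hq hq2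
  haveI : Fact q.Prime := ⟨hq⟩
  haveI := Cfsg.Agent.Lib.Cores.pCore_normal (G := G) q
  obtain ⟨N, hNn, hNc, k, hk⟩ := h q inferInstance hq2 inferInstance
  refine ⟨pCore q G, N.comap (QuotientGroup.mk' (pCore q G)), inferInstance, inferInstance, pCore_isPGroup q, ?_, ?_⟩
  · have h1 : IsPGroup q (G ⧸ N.comap (QuotientGroup.mk' (pCore q G))) := by
      apply IsPGroup.of_card (n := k)
      rw [← index_eq_card, index_comap_of_surjective _ (QuotientGroup.mk'_surjective _)]
      exact hk
    have := h1.isNilpotent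
    infer_instance
  · set P := pCore q G
    set K := N.comap (QuotientGroup.mk' P) with hK
    have hPK : P ≤ K := by
      intro x hx
      rw [hK, mem_comap]
      have : QuotientGroup.mk' P x = 1 := (QuotientGroup.eq_one_iff x).mpr hx
      rw [this]; exact one_mem _
    have h1 : P.relIndex K * Nat.card P = Nat.card K := relIndex_mul_card hPK
    have h2 : Nat.card K = Nat.card N * Nat.card P := by
      have e1 := K.index_mul_card
      have e2 := P.index_mul_card
      have e3 := N.index_mul_card
      have e4 : K.index = N.index := by rw [hK, index_comap_of_surjective _ (QuotientGroup.mk'_surjective _)]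
      rw [← index_eq_card] at e3
      have e5 : N.index * Nat.card K = N.index * (Nat.card N * Nat.card P) := by
        rw [← e4, e1, ← mul_assoc, e4, e3, e2]
      exact Nat.eq_of_mul_eq_mul_left (Nat.pos_of_ne_zero index_ne_zero_of_finite) e5
    have h3 : P.relIndex K = Nat.card N := Nat.eq_of_mul_eq_mul_right Nat.card_pos (h1.trans h2)
    rw [h3]
    exact fun hd => (Nat.Prime.coprime_iff_not_dvd hq).mp hNc.symm hd

end Cfsg.Agent.H3.SolvOdd
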